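import Cfsg.Agent.BenderUnique.Basic
import Cfsg.Agent.QdFree.Corollaries
import Cfsg.Agent.ZJ.Stable
import Cfsg.Prelude.Def_OddOrder

/-!
Two maximal subgroups with Fitting subgroups inside each other, in a minimal simple group of odd order.
-/

set_option autoImplicit false
set_option linter.style.haveILetI false

namespace CfsgLib.BenderUnique

open CfsgLib.Components
open scoped commutatorElement

universe u

/-- A quadratic `p`-element centralizing the `p'`-part of the Fitting subgroup lies in `O_p`. -/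
theorem mem_pCore_of_quadratic {L : Type u} [Group L] [Finite L] [Group.IsSolvable L] (hodd : Odd (Nat.card L))
    {p : ℕ} [Fact p.Prime] (hp2 : p ≠ 2) (a : L) (hap : ∃ k, orderOf a = p ^ k)
    (hq : ⁅⁅Cfsg.pCore p L, Subgroup.zpowers a⁆, Subgroup.zpowers a⁆ = ⊥)
    (hc : ∀ r : ℕ, r.Prime → r ≠ p → a ∈ Subgroup.centralizer (Cfsg.pCore r L : Set L)) :
    a ∈ Cfsg.pCore p L := by
  classical
  set P := Cfsg.pCore p L with hP
  have hst : Cfsg.IsPStableOn p P := CfsgLib.ZJ.isPStableOn_of_isNormalizerPStable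
    (CfsgLib.QdFree.isNormalizerPStable_of_odd hodd hp2) P (pCore_isPGroup p)
  have hmem := hst a hq
  haveI hCn : (Subgroup.centralizer (P : Set L)).Normal := Subgroup.normal_centralizer
  set π := QuotientGroup.mk' (Subgroup.centralizer (P : Set L)) with hπ
  set T := (Cfsg.pCore p (L ⧸ Subgroup.centralizer (P : Set L))).comap π with hT
  set X : Subgroup L := ⨅ r : {r : ℕ // r.Prime ∧ r ≠ p}, Subgroup.centralizer (Cfsg.pCore r L : Set L) with hX
  haveI : X.Normal := Subgroup.normal_iInf_normal fun r => Subgroup.normal_centralizer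
  haveI : T.Normal := (inferInstance : (Cfsg.pCore p (L ⧸ Subgroup.centralizer (P : Set L))).Normal).comap π
  have haY : a ∈ T ⊓ X := ⟨hmem, Subgroup.mem_iInf.2 fun r => hc r r.2.1 r.2.2⟩
  have hYnil : Group.IsNilpotent ↥(T ⊓ X) := by
    refine PrimeAction.nilpotent_of_central (s := p) fun t ht htp y ⟨k, hk⟩ => ?_
    haveI := Fact.mk ht
    have hk' : orderOf (y : L) = t ^ k := by rw [Subgroup.orderOf_coe, hk]
    have hyC : (y : L) ∈ Subgroup.centralizer (P : Set L) := by
      obtain ⟨j, hj⟩ := IsPGroup.iff_orderOf.1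
        (pCore_isPGroup (G := L ⧸ Subgroup.centralizer (P : Set L)) p) ⟨π (y : L), (Subgroup.mem_inf.1 y.2).1⟩
      replace hj : orderOf (π (y : L)) = p ^ j := (Subgroup.orderOf_mk ..).symm.trans hj
      have h1 : orderOf (π (y : L)) ∣ t ^ k := hk' ▸ orderOf_map_dvd π (y : L)
      have h2 : orderOf (π (y : L)) = 1 := Nat.eq_one_of_dvd_coprimes
        (((Nat.coprime_primes Fact.out ht).2 (Ne.symm htp)).pow j k) (hj ▸ dvd_rfl) h1
      exact (QuotientGroup.eq_one_iff _).1 (orderOf_eq_one_iff.1 h2)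
    have hyF : (y : L) ∈ Cfsg.fittingSubgroup L := by
      refine CfsgLib.Hall.centralizer_fitting_le ?_
      rw [← Subgroup.zpowers_le, Subgroup.le_centralizer_iff, fittingSubgroup_eq_iSup]
      refine iSup_le fun r => ?_
      rw [Subgroup.le_centralizer_iff, Subgroup.zpowers_le]
      by_cases hr : (r : ℕ) = p
      · rw [hr]; exact hyC
      · exact Subgroup.mem_iInf.1 y.2.2 ⟨r, Nat.prime_of_mem_primeFactors r.2, hr⟩
    haveI := fittingSubgroup_isNilpotent (G := L)
    have hyt : (y : L) ∈ Cfsg.pCore t L := by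
      refine (Subgroup.zpowers_le).1 (subnormal_le_pCore ?_ (IsPGroup.of_card (n := k) (by
        rw [Nat.card_zpowers, hk'])))
      exact subnormal_trans (Subgroup.zpowers_le.2 hyF)
        ((CfsgLib.Hall.Struct.nilpotent_iff_forall_subnormal (G := Cfsg.fittingSubgroup L)).1 inferInstance _)
        fittingSubgroup_normal.isSubnormal
    refine Subgroup.mem_center_iff.2 fun g => Subtype.ext ?_
    exact (Subgroup.mem_centralizer_iff.1 (Subgroup.mem_iInf.1 g.2.2 ⟨t, ht, htp⟩) _ hyt).symm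
  obtain ⟨k, hk⟩ := hap
  haveI := hYnil
  refine Subgroup.zpowers_le.1 (subnormal_le_pCore ?_ (IsPGroup.of_card (n := k) (by rw [Nat.card_zpowers, hk])))
  exact subnormal_trans (Subgroup.zpowers_le.2 haY)
    ((CfsgLib.Hall.Struct.nilpotent_iff_forall_subnormal (G := ↥(T ⊓ X))).1 inferInstance _)
    (inferInstance : (T ⊓ X).Normal).isSubnormal

variable {G : Type u} [Group G] [Finite G]

/-- The data shared by the two maximal subgroups. -/
structure Linked (H L : Subgroup G) : Prop where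
  le : ∀ p : ℕ, p.Prime → Cfsg.pCoreOf p H ≤ L
  le' : ∀ p : ℕ, p.Prime → Cfsg.pCoreOf p L ≤ H
  comm : ∀ p r : ℕ, p.Prime → r.Prime → p ≠ r →
    Cfsg.pCoreOf p H ≤ Subgroup.centralizer (Cfsg.pCoreOf r L : Set G)
  primes : ∀ p : ℕ, p.Prime → (p ∣ Nat.card (Cfsg.fittingOf H) ↔ p ∣ Nat.card (Cfsg.fittingOf L))
  cent : ∀ p : ℕ, p.Prime → p ∣ Nat.card (Cfsg.fittingOf H) →
    Subgroup.centralizer (centerPart p H : Set G) ≤ H

/-- Primary cores of one lie in those of the other. -/
theorem Linked.pCoreOf_le_pCoreOf {H L : Subgroup G} [Group.IsSolvable L] (h : Linked H L)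
    (hodd : Odd (Nat.card G)) {p r : ℕ} [Fact p.Prime] [Fact r.Prime] (hpr : r ≠ p)
    (hpn : p ∣ Nat.card (Cfsg.fittingOf H)) : Cfsg.pCoreOf r H ≤ Cfsg.pCoreOf r L := by
  classical
  have hp : p.Prime := Fact.out
  have hp2 : p ≠ 2 := fun e => Nat.not_even_iff_odd.2 hodd (even_iff_two_dvd.2
    ((e ▸ hpn).trans (Subgroup.card_subgroup_dvd_card _)))
  have hA : centerPart p H ≤ Cfsg.pCoreOf p L := by
    intro a ha
    have haL : a ∈ L := h.le p hp ha.1
    refine ⟨⟨a, haL⟩, mem_pCore_of_quadratic (Odd.of_dvd_nat hodd (Subgroup.card_subgroup_dvd_card L)) hp2 _ ?_ ?_ ?_, rfl⟩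
    · obtain ⟨k, hk⟩ := IsPGroup.iff_orderOf.1 (isPGroup_centerPart p H) ⟨a, ha⟩
      exact ⟨k, by rw [Subgroup.orderOf_mk] at hk ⊢; exact hk⟩
    · apply Subgroup.map_injective L.subtype_injective
      rw [Subgroup.map_bot, Subgroup.map_commutator, Subgroup.map_commutator, MonoidHom.map_zpowers,
        eq_bot_iff]
      show ⁅⁅Cfsg.pCoreOf p L, Subgroup.zpowers a⁆, Subgroup.zpowers a⁆ ≤ ⊥
      refine (Subgroup.commutator_mono (Subgroup.commutator_le.2 fun x hx b hb => ?_)
        (Subgroup.zpowers_le.2 ha)).trans (le_of_eq ?_) (a := ⁅⁅Cfsg.pCoreOf p L, Subgroup.zpowers a⁆,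
          Subgroup.zpowers a⁆) (b := ⁅centerPart p H, centerPart p H⁆)
      · have hb' : b ∈ centerPart p H := Subgroup.zpowers_le.2 ha hb
        rw [commutatorElement_def]
        exact mul_mem (CfsgLib.CoprimeAction.conj_mem (le_normalizer_centerPart p H) (h.le' p hp hx) hb')
          (inv_mem hb')
      · rw [Subgroup.commutator_eq_bot_iff_le_centralizer]
        exact fun b hb => Subgroup.mem_centralizer_iff.2 fun c hc =>
          Subgroup.mem_centralizer_iff.1 hb.2 c (pCoreOf_le_fittingOf p H hc.1)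
    · intro t ht htp
      exact Subgroup.mem_centralizer_iff.2 fun x hx => Subtype.ext
        (Subgroup.mem_centralizer_iff.1 (h.comm p t hp ht (Ne.symm htp) ha.1) x ⟨x, hx, rfl⟩)
  set Y := L ⊓ Subgroup.centralizer (Cfsg.pCoreOf p L : Set G) with hY
  have hYH : Y ≤ H := inf_le_right.trans ((Subgroup.centralizer_le hA).trans (h.cent p hp hpn))
  have hrY : Cfsg.pCoreOf r H ≤ Y := le_inf (h.le r Fact.out) (h.comm r p Fact.out hp hpr)
  have hYn : L ≤ Subgroup.normalizer (Y : Set G) := fun l hl =>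
    Subgroup.inf_normalizer_le_normalizer_inf ⟨Subgroup.le_normalizer hl,
      CfsgLib.Components.normalizer_le_normalizer_centralizer _
        (normalizer_le_normalizer_pCoreOf p L (Subgroup.le_normalizer hl))⟩
  have h1 : (Cfsg.pCoreOf r H).subgroupOf L ≤ Cfsg.pCore r L := by
    refine subnormal_le_pCore ?_ ((isPGroup_pCoreOf r H).of_equiv
      (Subgroup.subgroupOfEquivOfLe (hrY.trans inf_le_left)).symm)
    refine subnormal_trans (K := Y.subgroupOf L) (Subgroup.comap_mono hrY) ?_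
      (Subgroup.normal_subgroupOf_of_le_normalizer hYn).isSubnormal
    refine (Subgroup.normal_subgroupOf_of_le_normalizer ?_).isSubnormal
    intro y hy
    rw [← Subgroup.subgroupOf_normalizer_eq (hrY.trans inf_le_left)]
    exact normalizer_le_normalizer_pCoreOf r H (Subgroup.le_normalizer (hYH hy))
  rw [← Subgroup.map_subgroupOf_eq_of_le (hrY.trans inf_le_left)]
  exact Subgroup.map_mono h1

omit [Finite G] in
/-- A maximal subgroup of a minimal simple group is the normalizer of each of its non-trivial normal subgroups. -/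
theorem normalizer_eq_of_isCoatom (hG : Cfsg.IsMinSimpleOddOrder G) {H X : Subgroup G} (hH : IsCoatom H)
    (hX : X ≤ H) (hX1 : X ≠ ⊥) (hn : H ≤ Subgroup.normalizer (X : Set G)) :
    Subgroup.normalizer (X : Set G) = H := by
  refine (hH.le_iff.1 hn).resolve_left fun htop => ?_
  rcases hG.2.1.eq_bot_or_eq_top_of_normal X (Subgroup.normalizer_eq_top_iff.1 htop) with h | h
  · exact hX1 h
  · exact hH.1 (top_unique (h ▸ hX))

/-- `B` centralizes the `p`-group `K` when it commutes with `A` and `C_K(A)` normalizes it. -/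
theorem le_centralizer_of_AxB {p r : ℕ} [Fact p.Prime] [Fact r.Prime] (hpr : p ≠ r) {A B K C : Subgroup G}
    (hA : IsPGroup p A) (hB : IsPGroup r B) (hK : IsPGroup p K) (hAB : ∀ a ∈ A, ∀ b ∈ B, a * b = b * a)
    (hAK : A ≤ Subgroup.normalizer (K : Set G)) (hBK : B ≤ Subgroup.normalizer (K : Set G))
    (hC : K ⊓ Subgroup.centralizer (A : Set G) ≤ C) (hCB : C ≤ Subgroup.normalizer (B : Set G)) :
    B ≤ Subgroup.centralizer (K : Set G) := by
  obtain ⟨i, hi⟩ := IsPGroup.iff_card.1 hB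
  obtain ⟨j, hj⟩ := IsPGroup.iff_card.1 hK
  have hcop : (Nat.card B).Coprime p := hi ▸ ((Nat.coprime_primes Fact.out Fact.out).2 hpr.symm).pow_left i
  refine PCore.thompson_AxB hA hcop hK hAB hAK hBK fun b hb => Subgroup.mem_centralizer_iff.2 fun c hc => ?_
  have h1 : c * b * c⁻¹ * b⁻¹ ∈ B :=
    mul_mem (CfsgLib.CoprimeAction.conj_mem hCB (hC hc) hb) (inv_mem hb)
  have h2 : c * b * c⁻¹ * b⁻¹ ∈ K := by
    rw [show c * b * c⁻¹ * b⁻¹ = c * (b * c⁻¹ * b⁻¹) by group]
    exact mul_mem hc.1 (CfsgLib.CoprimeAction.conj_mem hBK hb (inv_mem hc.1))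
  have h3 : c * b * c⁻¹ * b⁻¹ = 1 := by
    have := CfsgLib.CoprimeAction.inf_eq_bot_of_coprime (hj ▸ hcop.pow_right j)
    exact Subgroup.mem_bot.1 (this ▸ ⟨h1, h2⟩)
  rw [mul_inv_eq_one, mul_inv_eq_iff_eq_mul] at h3
  exact h3

/-- Uniqueness of the maximal overgroup. -/
theorem eq_of_le (hG : Cfsg.IsMinSimpleOddOrder G) {H M L : Subgroup G} (hH : IsCoatom H) (hL : IsCoatom L)
    (hF2 : 2 ≤ (Nat.card (Cfsg.fittingOf H)).primeFactors.card) (hM : M ≤ Cfsg.fittingOf H)
    (hZM : Cfsg.fittingOf H ⊓ Subgroup.centralizer (Cfsg.fittingOf H : Set G) ≤ M)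
    (hinv : ∀ Y ∈ Cfsg.invSubgroups ⊤ M (Cfsg.primesNotDvd (Nat.card (Cfsg.fittingOf H))), Y = ⊥)
    (hML : M ≤ L) : L = H := by
  classical
  haveI hHs : Group.IsSolvable H := hG.2.2.2 H hH.1
  haveI hLs : Group.IsSolvable L := hG.2.2.2 L hL.1
  set n := Nat.card (Cfsg.fittingOf H) with hn
  have hZ : ∀ p : ℕ, p.Prime → centerPart p H ≤ M := fun p hp => by
    haveI := Fact.mk hp
    exact (centerPart_le_center p H).trans hZM
  have hcent : ∀ (U : Subgroup G), IsCoatom U → ∀ p : ℕ, p.Prime → p ∣ Nat.card (Cfsg.fittingOf U) →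
      Subgroup.centralizer (centerPart p U : Set G) ≤ U := by
    intro U hU p hp hpd
    haveI := Fact.mk hp
    exact (Subgroup.centralizer_le_normalizer _).trans (normalizer_eq_of_isCoatom hG hU
      (inf_le_left.trans (pCoreOf_le p U)) (centerPart_ne_bot U hpd) (le_normalizer_centerPart p U)).le
  have hnL : ∀ (U : Subgroup G) (p : ℕ), U ≤ Subgroup.normalizer (Cfsg.pCoreOf p U : Set G) := fun U p =>
    Subgroup.le_normalizer.trans (normalizer_le_normalizer_pCoreOf p U)
  -- no new primes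
  have hsub : ∀ p : ℕ, p.Prime → p ∣ Nat.card (Cfsg.fittingOf L) → p ∣ n := by
    intro p hp hpd
    by_contra hpn
    haveI := Fact.mk hp
    have h0 : Cfsg.pCoreOf p L = ⊥ := by
      refine hinv _ ⟨le_top, fun t ht htd => ?_, hML.trans (hnL L p)⟩
      obtain ⟨j, hj⟩ := IsPGroup.iff_card.1 (isPGroup_pCoreOf p L)
      rw [hj] at htd
      obtain rfl := (Nat.prime_dvd_prime_iff_eq ht hp).1 (ht.dvd_of_dvd_pow htd)
      exact ⟨ht, hpn⟩
    exact centerPart_ne_bot L hpd (eq_bot_iff.2 (inf_le_left.trans h0.le))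
  have hbotL : ∀ p : ℕ, p.Prime → ¬ p ∣ Nat.card (Cfsg.fittingOf L) → Cfsg.pCoreOf p L = ⊥ := by
    intro p hp hpd
    haveI := Fact.mk hp
    obtain ⟨j, hj⟩ := IsPGroup.iff_card.1 (isPGroup_pCoreOf p L)
    have h1 := Subgroup.card_dvd_of_le (pCoreOf_le_fittingOf p L)
    rw [← Subgroup.card_eq_one, hj]
    rcases Nat.eq_zero_or_pos j with h | h
    · rw [h, pow_zero]
    · exact absurd ((dvd_pow_self p h.ne').trans (hj ▸ h1)) hpd
  -- central parts of `H` centralize the other cores of `L`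
  have hB : ∀ p r : ℕ, p.Prime → r.Prime → p ≠ r → p ∣ n →
      centerPart r H ≤ Subgroup.centralizer (Cfsg.pCoreOf p L : Set G) := by
    intro p r hp hr hpr hpn
    haveI := Fact.mk hp
    haveI := Fact.mk hr
    exact le_centralizer_of_AxB hpr (isPGroup_centerPart p H) (isPGroup_centerPart r H) (isPGroup_pCoreOf p L)
      (fun a ha b hb => Subgroup.mem_centralizer_iff.1 hb.2 a (pCoreOf_le_fittingOf p H ha.1))
      ((hZ p hp).trans (hML.trans (hnL L p))) ((hZ r hr).trans (hML.trans (hnL L p)))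
      (inf_le_right.trans (hcent H hH p hp hpn)) (le_normalizer_centerPart r H)
  have hLH : ∀ p : ℕ, p.Prime → Cfsg.pCoreOf p L ≤ H := by
    intro p hp
    by_cases hpd : p ∣ Nat.card (Cfsg.fittingOf L)
    · obtain ⟨r, hr, hrp⟩ : ∃ r ∈ n.primeFactors, r ≠ p := Finset.exists_mem_ne (by omega) p
      obtain ⟨hr, hrn, -⟩ := Nat.mem_primeFactors.1 hr
      exact (Subgroup.le_centralizer_iff.1 (hB p r hp hr (Ne.symm hrp) (hsub p hp hpd))).trans (hcent H hH r hr hrn)
    · rw [hbotL p hp hpd]; exact bot_le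
  have hprimes : ∀ p : ℕ, p.Prime → (p ∣ n ↔ p ∣ Nat.card (Cfsg.fittingOf L)) := by
    refine fun p hp => ⟨fun hpn => ?_, hsub p hp⟩
    by_contra hpd
    haveI := Fact.mk hp
    refine centerPart_ne_bot H hpn ?_
    have hle : centerPart p H ≤ Cfsg.fittingOf L := by
      intro a ha
      refine mem_fittingOf_of_centralizer (hML (hZ p hp ha)) ?_
      rw [← Subgroup.zpowers_le, Subgroup.le_centralizer_iff, Cfsg.fittingOf, fittingSubgroup_eq_iSup,
        Subgroup.map_iSup]
      refine iSup_le fun r => ?_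
      rw [Subgroup.le_centralizer_iff, Subgroup.zpowers_le]
      by_cases hrd : (r : ℕ) ∣ Nat.card (Cfsg.fittingOf L)
      · exact hB r p (Nat.prime_of_mem_primeFactors r.2) hp (fun e => hpd (e ▸ hrd))
          (hsub r (Nat.prime_of_mem_primeFactors r.2) hrd) ha
      · have := hbotL r (Nat.prime_of_mem_primeFactors r.2) hrd
        rw [Cfsg.pCoreOf] at this
        rw [this]
        exact Subgroup.mem_centralizer_iff.2 fun y hy => by simp [Subgroup.mem_bot.1 hy]
    obtain ⟨j, hj⟩ := IsPGroup.iff_card.1 (isPGroup_centerPart p H)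
    rw [← Subgroup.card_eq_one, hj]
    rcases Nat.eq_zero_or_pos j with h | h
    · rw [h, pow_zero]
    · exact absurd ((dvd_pow_self p h.ne').trans (hj ▸ Subgroup.card_dvd_of_le hle)) hpd
  have hcomm : ∀ p r : ℕ, p.Prime → r.Prime → p ≠ r →
      Cfsg.pCoreOf p H ≤ Subgroup.centralizer (Cfsg.pCoreOf r L : Set G) := by
    intro p r hp hr hpr
    haveI := Fact.mk hp
    haveI := Fact.mk hr
    by_cases hpn : p ∣ n
    · refine Subgroup.le_centralizer_iff.1 (le_centralizer_of_AxB hpr (A := Cfsg.pCoreOf p L) (C := L)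
        (isPGroup_pCoreOf p L) (isPGroup_pCoreOf r L) (isPGroup_pCoreOf p H) ?_
        ((hLH p hp).trans (hnL H p)) ((hLH r hr).trans (hnL H p))
        (inf_le_right.trans ((Subgroup.centralizer_le inf_le_left).trans (hcent L hL p hp ((hprimes p hp).1 hpn))))
        (hnL L r))
      rintro _ ⟨a, ha, rfl⟩ _ ⟨b, hb, rfl⟩
      exact congrArg Subtype.val ((Subgroup.commute_of_normal_of_disjoint (Cfsg.pCore p L) (Cfsg.pCore r L)
        inferInstance inferInstance (IsPGroup.disjoint_of_ne p r hpr _ _ (pCore_isPGroup p) (pCore_isPGroup r))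
        a b ha hb).eq)
    · have : Cfsg.pCoreOf p H = ⊥ := by
        obtain ⟨j, hj⟩ := IsPGroup.iff_card.1 (isPGroup_pCoreOf p H)
        rw [← Subgroup.card_eq_one, hj]
        rcases Nat.eq_zero_or_pos j with h | h
        · rw [h, pow_zero]
        · exact absurd ((dvd_pow_self p h.ne').trans (hj ▸ Subgroup.card_dvd_of_le (pCoreOf_le_fittingOf p H))) hpn
      rw [this]; exact bot_le
  have hHL : ∀ p : ℕ, p.Prime → Cfsg.pCoreOf p H ≤ L := by
    intro p hp
    haveI := Fact.mk hp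
    obtain ⟨r, hr, hrp⟩ : ∃ r ∈ n.primeFactors, r ≠ p := Finset.exists_mem_ne (by omega) p
    obtain ⟨hr, hrn, -⟩ := Nat.mem_primeFactors.1 hr
    exact (hcomm p r hp hr (Ne.symm hrp)).trans
      ((Subgroup.centralizer_le inf_le_left).trans (hcent L hL r hr ((hprimes r hr).1 hrn)))
  have h₁ : Linked H L := ⟨hHL, hLH, hcomm, hprimes, hcent H hH⟩
  have h₂ : Linked L H := ⟨hLH, hHL, fun p r hp hr hpr => Subgroup.le_centralizer_iff.1 (hcomm r p hr hp hpr.symm),
    fun p hp => (hprimes p hp).symm, hcent L hL⟩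
  obtain ⟨r, hr, hr0⟩ : ∃ r ∈ n.primeFactors, r ≠ 0 := Finset.exists_mem_ne (by omega) 0
  obtain ⟨p, hp, hpr⟩ : ∃ p ∈ n.primeFactors, p ≠ r := Finset.exists_mem_ne (by omega) r
  obtain ⟨hr, hrn, -⟩ := Nat.mem_primeFactors.1 hr
  obtain ⟨hp, hpn, -⟩ := Nat.mem_primeFactors.1 hp
  haveI := Fact.mk hp
  haveI := Fact.mk hr
  have heq : Cfsg.pCoreOf r H = Cfsg.pCoreOf r L :=
    le_antisymm (h₁.pCoreOf_le_pCoreOf hG.1 hpr.symm hpn)
      (h₂.pCoreOf_le_pCoreOf hG.1 hpr.symm ((hprimes p hp).1 hpn))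
  have hne : Cfsg.pCoreOf r H ≠ ⊥ := fun h => centerPart_ne_bot H hrn (eq_bot_iff.2 (inf_le_left.trans h.le))
  calc L = Subgroup.normalizer (Cfsg.pCoreOf r L : Set G) :=
        (normalizer_eq_of_isCoatom hG hL (pCoreOf_le r L) (heq ▸ hne) (hnL L r)).symm
    _ = Subgroup.normalizer (Cfsg.pCoreOf r H : Set G) := by rw [heq]
    _ = H := normalizer_eq_of_isCoatom hG hH (pCoreOf_le r H) hne (hnL H r)

end CfsgLib.BenderUnique
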